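import Mathlib
import Cfsg.Agent.H449.Reg.Semi
import Cfsg.Agent.H955.QMinus
import Cfsg.Agent.H386.Rg.D2

/-!
# S3691, residual case F-D+2, P3 (helper499): geometry

* `exists_plane` : a nondegenerate space of dimension at least three contains an anisotropic plane
* `exists_pair` : `W` totally singular of dimension `m`, `S ≤ W` of codimension two: there is an anisotropic plane with given Gram matrix
  whose perp meets `W` in `S`
* `trans_block`, `trans_hyper` : a group of semisimilitudes fixing `W`, transitive on the subspaces of codimension two, is transitive on the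
  hyperplanes of `W`
-/

set_option autoImplicit false

namespace Cfsg.Agent.H499.Rd

open Module QuadraticMap Cfsg.Agent.LieClassical.OrthCore Cfsg.Agent.LieClassical.OrthTrans
  Cfsg.Agent.ClassicalGeometry.OrthSemi Cfsg.Agent.H955 Cfsg.Agent.H449.Reg
open Cfsg.Agent.H386.Rg (Aniso)

section lin

variable {F V : Type*} [Field F] [AddCommGroup V] [Module F V] [FiniteDimensional F V]

theorem finrank_sup_span {S : Submodule F V} {x : V} (hx : x ∉ S) : finrank F (S ⊔ F ∙ x : Submodule F V) = finrank F S + 1 := by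
  have hx0 : x ≠ 0 := fun h => hx (by rw [h]; exact S.zero_mem)
  have h1 := Submodule.finrank_sup_add_finrank_inf_eq S (F ∙ x)
  have h2 : S ⊓ (F ∙ x) = ⊥ := ((Submodule.disjoint_span_singleton' hx0).2 hx).eq_bot
  rw [h2, finrank_bot, finrank_span_singleton hx0, add_zero] at h1
  exact h1

theorem exists_between {A B : Submodule F V} (hAB : A ≤ B) {k : ℕ} (h1 : finrank F A ≤ k) (h2 : k ≤ finrank F B) :
    ∃ S : Submodule F V, A ≤ S ∧ S ≤ B ∧ finrank F S = k := by
  induction k, h1 using Nat.le_induction with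
  | base => exact ⟨A, le_rfl, hAB, rfl⟩
  | succ k hk ih =>
    obtain ⟨S, hS1, hS2, hS3⟩ := ih (by omega)
    have hlt : S < B := lt_of_le_of_ne hS2 fun h => by rw [← h] at h2; omega
    obtain ⟨x, hx, hxS⟩ := SetLike.exists_of_lt hlt
    refine ⟨S ⊔ F ∙ x, hS1.trans le_sup_left, sup_le hS2 ((Submodule.span_singleton_le_iff_mem x B).2 hx), ?_⟩
    rw [finrank_sup_span hxS, hS3]

end lin

section plane

variable {F V : Type*} [Field F] [Finite F] [AddCommGroup V] [Module F V] [FiniteDimensional F V] {Q : QuadraticForm F V}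

omit [Finite F] [FiniteDimensional F V] in
theorem exists_ne_of_nondeg (hQ : Nondeg Q) (hd : 0 < finrank F V) : ∃ z, Q z ≠ 0 := by
  by_contra hcon
  push Not at hcon
  have : Nontrivial V := Module.nontrivial_of_finrank_pos hd
  obtain ⟨x, hx⟩ := exists_ne (0 : V)
  apply hx
  apply hQ
  intro y
  simp only [polar, hcon, sub_zero]

/-- **anisotropic planes exist** in dimension at least three -/
theorem exists_plane (hQ : Nondeg Q) (hd : 3 ≤ finrank F V) : ∃ u w : V, Aniso Q u w := by
  obtain ⟨x, hx0, hx⟩ := exists_singular Q hd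
  obtain ⟨y, h⟩ := Cfsg.Agent.LieClassical.OrthTrans.exists_hyp hQ hx hx0
  have h4 := finrank_hperp h
  obtain ⟨z, hz⟩ := exists_ne_of_nondeg (nondeg_hperp hQ h) (by omega)
  obtain ⟨hxz, hyz⟩ := mem_hperp.1 z.2
  have hz' : Q (z : V) ≠ 0 := hz
  by_cases h2 : (2 : F) = 0
  · have hchar : CharP F 2 := CharTwo.of_one_ne_zero_of_two_eq_zero one_ne_zero h2
    obtain ⟨μ, hμ⟩ : ∃ b : F, ∀ x : F, x ^ 2 + x ≠ b := by
      by_contra hcon
      push Not at hcon
      have hs : Function.Surjective (fun x : F => x ^ 2 + x) := hcon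
      have hi := Finite.injective_iff_surjective.2 hs
      have : (0 : F) = 1 := hi (by simp [CharTwo.add_self_eq_zero])
      exact zero_ne_one this
    obtain ⟨s, hs⟩ := FiniteField.isSquare_of_char_two (F := F) (ringChar.eq F 2) (μ / Q (z : V))
    have hs' : s * s * Q (z : V) = μ := by
      rw [← hs]; field_simp
    refine ⟨x + y, x + s • (z : V), fun a b hab => ?_⟩
    have hu : Q (x + y) = 1 := by rw [Q_add, h.left, h.right, h.pair]; ring
    have hw : Q (x + s • (z : V)) = μ := by
      rw [Q_add, h.left, QuadraticMap.map_smul, polar_smul_right, hxz, smul_eq_mul, hs']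
      simp
    have huw : polar Q (x + y) (x + s • (z : V)) = 1 := by
      rw [polar_add_left, polar_add_right, polar_add_right, polar_smul_right, polar_smul_right, hxz, hyz, h.pair', h.polar_left]
      simp
    rw [Q_add, QuadraticMap.map_smul, QuadraticMap.map_smul, polar_smul_left, polar_smul_right, hu, hw, huw] at hab
    simp only [smul_eq_mul, mul_one] at hab
    by_cases hb : b = 0
    · subst hb
      refine ⟨?_, rfl⟩
      simpa using hab
    · exfalso
      apply hμ (a / b)
      have h5 : (a / b) ^ 2 + a / b + μ = 0 := by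
        field_simp
        linear_combination hab
      have h6 := eq_neg_of_add_eq_zero_left h5
      rwa [CharTwo.neg_eq] at h6
  · have hrc : ringChar F ≠ 2 := Cfsg.Agent.ClassicalGeometry.Universal.ringChar_ne_two h2
    have := Fintype.ofFinite F
    obtain ⟨α, hα⟩ := FiniteField.exists_nonsquare hrc
    have hα0 : α ≠ 0 := by
      rintro rfl
      exact hα ⟨0, by rw [mul_zero]⟩
    set t : F := -α / Q (z : V) with ht
    have ht0 : t ≠ 0 := by
      rw [ht]
      exact div_ne_zero (neg_ne_zero.2 hα0) hz'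
    have htz : t * Q (z : V) = -α := by
      rw [ht]; field_simp
    refine ⟨x + t • y, (z : V), fun a b hab => ?_⟩
    have hu : Q (x + t • y) = t := by
      rw [Q_add, h.left, QuadraticMap.map_smul, h.right, polar_smul_right, h.pair]; simp
    have huw : polar Q (x + t • y) (z : V) = 0 := by
      rw [polar_add_left, polar_smul_left, hxz, hyz]; simp
    rw [Q_add, QuadraticMap.map_smul, QuadraticMap.map_smul, polar_smul_left, polar_smul_right, hu, huw] at hab
    simp only [smul_eq_mul, mul_zero, add_zero] at hab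
    by_cases hb : b = 0
    · subst hb
      refine ⟨?_, rfl⟩
      simp only [zero_mul, add_zero] at hab
      exact mul_self_eq_zero.1 ((mul_eq_zero.1 hab).resolve_right ht0)
    · exfalso
      apply hα
      refine ⟨t * a / b, ?_⟩
      field_simp
      linear_combination (-t) * hab + b ^ 2 * htz

omit [Finite F] [FiniteDimensional F V] in
theorem Q_comb (u w : V) (s t : F) : Q (s • u + t • w) = Q u * s ^ 2 + polar Q u w * (s * t) + Q w * t ^ 2 := by
  rw [Q_add, QuadraticMap.map_smul, QuadraticMap.map_smul, polar_smul_left, polar_smul_right]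
  simp only [smul_eq_mul]
  ring

omit [Finite F] [FiniteDimensional F V] in
theorem aniso_iff {u w : V} : Aniso Q u w ↔
    ∀ s t : F, Q u * s ^ 2 + polar Q u w * (s * t) + Q w * t ^ 2 = 0 → s = 0 ∧ t = 0 := by
  constructor
  · intro h s t hst
    exact h s t (by rw [Q_comb]; exact hst)
  · intro h s t hst
    exact h s t (by rw [← Q_comb]; exact hst)

end plane

section codim

variable {F V : Type*} [Field F] [AddCommGroup V] [Module F V] [FiniteDimensional F V] {Q : QuadraticForm F V}

/-- **planes with given trace** on a maximal totally singular subspace -/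
theorem exists_pair (hQ : Nondeg Q) {m : ℕ} (hd : finrank F V = 2 * m) {W S : Submodule F V} (hW : ∀ w ∈ W, Q w = 0)
    (hWd : finrank F W = m) (hS : S ≤ W) (hSd : finrank F S + 2 = m) (a b c : F) :
    ∃ u w, Q u = a ∧ Q w = b ∧ polar Q u w = c ∧ ∀ v ∈ W, v ∈ S ↔ polar Q u v = 0 ∧ polar Q w v = 0 := by
  have hpW : ∀ x ∈ W, ∀ y ∈ W, polar Q x y = 0 := fun x hx y hy => polar_eq_zero_of_tsing hW hx hy
  have hD := finrank_add_perp hQ S
  have hWD : W ≤ perp Q S := fun x hx s hs => hpW s (hS hs) x hx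
  obtain ⟨u1, hu1, hu1'⟩ := SetLike.exists_of_lt (lt_of_le_of_ne hWD fun h => by rw [← h] at hD; omega)
  have hW1 := finrank_sup_span hu1'
  have hW1D : W ⊔ F ∙ u1 ≤ perp Q S := sup_le hWD ((Submodule.span_singleton_le_iff_mem _ _).2 hu1)
  obtain ⟨w1, hw1, hw1'⟩ := SetLike.exists_of_lt (lt_of_le_of_ne hW1D fun h => by rw [← h, hW1] at hD; omega)
  have hW2 := finrank_sup_span hw1'
  have hW2D : W ⊔ F ∙ u1 ⊔ F ∙ w1 ≤ perp Q S := sup_le hW1D ((Submodule.span_singleton_le_iff_mem _ _).2 hw1)
  have heq : W ⊔ F ∙ u1 ⊔ F ∙ w1 = perp Q S := Submodule.eq_of_le_of_finrank_eq hW2D (by omega)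
  have hiff : ∀ v ∈ W, v ∈ S ↔ polar Q u1 v = 0 ∧ polar Q w1 v = 0 := by
    intro v hv
    constructor
    · intro hvS
      exact ⟨by rw [polar_comm]; exact hu1 v hvS, by rw [polar_comm]; exact hw1 v hvS⟩
    · rintro ⟨e1, e2⟩
      rw [← perp_perp hQ S, ← heq]
      intro x hx
      obtain ⟨y, hy, z, hz, rfl⟩ := Submodule.mem_sup.1 hx
      obtain ⟨y', hy', y'', hy'', rfl⟩ := Submodule.mem_sup.1 hy
      obtain ⟨s, rfl⟩ := Submodule.mem_span_singleton.1 hz
      obtain ⟨t, rfl⟩ := Submodule.mem_span_singleton.1 hy''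
      rw [polar_add_left, polar_add_left, polar_smul_left, polar_smul_left, hpW _ hy' _ hv, e1, e2]
      simp
  -- the functionals are independent
  let L : W →ₗ[F] (F × F) := ((polarBilin Q u1).prod (polarBilin Q w1)).comp W.subtype
  have hL : ∀ x : W, L x = (polar Q u1 x, polar Q w1 x) := fun _ => rfl
  have hker : LinearMap.ker L = S.comap W.subtype := by
    ext x
    rw [LinearMap.mem_ker, hL, Submodule.mem_comap, Prod.mk_eq_zero]
    exact (hiff x x.2).symm
  have hrk := LinearMap.finrank_range_add_finrank_ker L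
  rw [hker, (Submodule.comapSubtypeEquivOfLe hS).finrank_eq] at hrk
  have hsurj : Function.Surjective L := by
    rw [← LinearMap.range_eq_top]
    apply Submodule.eq_top_of_finrank_eq
    rw [Module.finrank_prod, Module.finrank_self]
    omega
  obtain ⟨x, hx⟩ := hsurj (a - Q u1, 0)
  rw [hL, Prod.mk.injEq] at hx
  obtain ⟨y, hy⟩ := hsurj (c - polar Q (u1 + x) w1, b - Q w1)
  rw [hL, Prod.mk.injEq] at hy
  refine ⟨u1 + x, w1 + y, ?_, ?_, ?_, fun v hv => ?_⟩
  · rw [Q_add, hW _ x.2, hx.1]; ring
  · rw [Q_add, hW _ y.2, hy.2]; ring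
  · rw [polar_add_right, polar_add_left Q u1 (x : V) (y : V), hpW _ x.2 _ y.2, hy.1]; ring
  · rw [hiff v hv, polar_add_left, polar_add_left, hpW _ x.2 _ hv, hpW _ y.2 _ hv, add_zero, add_zero]

end codim

section block

open Finset in
/-- **a design lemma**: transitive on the blocks implies transitive on the points -/
theorem trans_block {Γ A B : Type*} [Group Γ] [MulAction Γ A] [MulAction Γ B] [Finite A] [Finite B] (I : A → B → Prop)
    (hI : ∀ (g : Γ) a b, I a b → I (g • a) (g • b)) (hB : ∀ b b' : B, ∃ g : Γ, g • b = b') {N : ℕ} (hN : 2 ≤ N)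
    (hcard : ∀ a, Nat.card {b // I a b} = N) (huniq : ∀ a a' : A, a ≠ a' → Nat.card {b // I a b ∧ I a' b} = 1) (a a' : A) :
    ∃ g : Γ, g • a = a' := by
  classical
  have := Fintype.ofFinite A
  have := Fintype.ofFinite B
  by_contra hcon
  have hor : a' ∉ MulAction.orbit Γ a := hcon
  set O : Finset A := univ.filter (fun x => x ∈ MulAction.orbit Γ a) with hO
  have hmemO : ∀ x, x ∈ O ↔ x ∈ MulAction.orbit Γ a := fun x => by rw [hO, mem_filter]; simp
  have hc : ∀ b b' : B, (O.filter fun x => I x b).card = (O.filter fun x => I x b').card := by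
    have key : ∀ (b : B) (g : Γ), (O.filter fun x => I x b).card ≤ (O.filter fun x => I x (g • b)).card := by
      intro b g
      refine card_le_card_of_injOn (fun x => g • x) ?_ (fun x _ y _ h => smul_left_cancel g h)
      intro x hx
      rw [mem_coe, mem_filter, hmemO] at hx
      rw [mem_coe, mem_filter, hmemO]
      exact ⟨MulAction.mem_orbit_of_mem_orbit g hx.1, hI g x b hx.2⟩
    intro b b'
    obtain ⟨g, rfl⟩ := hB b b'
    refine le_antisymm (key b g) ?_
    have h1 := key (g • b) g⁻¹
    rwa [inv_smul_smul] at h1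
  have hcard' : ∀ x : A, (univ.filter fun b => I x b).card = N := fun x => by
    rw [← hcard x, Nat.card_eq_fintype_card, Fintype.card_subtype]
  -- double counting
  have hdc : ∀ x : A, ∀ b0 : B, ∑ y ∈ O, (univ.filter fun b => I x b ∧ I y b).card = N * (O.filter fun y => I y b0).card := by
    intro x b0
    have h1 := sum_card_bipartiteAbove_eq_sum_card_bipartiteBelow (s := O) (t := univ.filter fun b => I x b) (fun y b => I y b)
    have h2 : ∀ b ∈ univ.filter (fun b => I x b), (O.bipartiteBelow (fun y b => I y b) b).card = (O.filter fun y => I y b0).card :=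
      fun b _ => hc b b0
    rw [sum_congr rfl h2, sum_const, hcard' x, smul_eq_mul] at h1
    rw [← h1]
    refine sum_congr rfl fun y _ => ?_
    rw [bipartiteAbove, filter_filter]
  have h1 : ∀ x y : A, x ≠ y → (univ.filter fun b => I x b ∧ I y b).card = 1 := fun x y hxy => by
    rw [← huniq x y hxy, Nat.card_eq_fintype_card, Fintype.card_subtype]
  -- a block
  obtain ⟨b0⟩ : Nonempty B := by
    have h2 : 0 < Nat.card {b // I a b} := by rw [hcard]; omega
    obtain ⟨⟨b, -⟩⟩ := (Nat.card_pos_iff.1 h2).1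
    exact ⟨b⟩
  have haO : a ∈ O := (hmemO a).2 (MulAction.mem_orbit_self a)
  have e1 := hdc a' b0
  have e2 := hdc a b0
  rw [← e1, ← sum_erase_add _ _ haO] at e2
  rw [← sum_erase_add _ _ haO] at e2
  have e3 : ∀ y ∈ O.erase a, (univ.filter fun b => I a b ∧ I y b).card = (univ.filter fun b => I a' b ∧ I y b).card := by
    intro y hy
    rw [mem_erase] at hy
    rw [h1 a y hy.1.symm, h1 a' y]
    rintro rfl
    exact hor ((hmemO _).1 hy.2)
  rw [sum_congr rfl e3] at e2
  have e4 : (univ.filter fun b => I a b ∧ I a b).card = N := by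
    simp only [and_self]
    exact hcard' a
  rw [e4, h1 a' a (by rintro rfl; exact hor (MulAction.mem_orbit_self _))] at e2
  omega

end block

section hyper

variable {F V : Type*} [Field F] [Finite F] [AddCommGroup V] [Module F V] [FiniteDimensional F V] {Q : QuadraticForm F V}

/-- the subspaces of `W` of codimension `k` -/
abbrev Sb (W : Submodule F V) (m k : ℕ) : Type _ := {S : Submodule F V // S ≤ W ∧ finrank F S + k = m}

/-- the action on the subspaces of `W` of codimension `k` -/
abbrev sbAct (Γ : Subgroup (Gam Q)) (W : Submodule F V) (hΓ : ∀ M ∈ Γ, img M W = W) (m k : ℕ) : MulAction Γ (Sb W m k) where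
  smul M S := ⟨img M.1 S.1, by
    refine ⟨?_, by rw [finrank_img]; exact S.2.2⟩
    conv_rhs => rw [← hΓ M.1 M.2]
    exact img_mono _ S.2.1⟩
  one_smul S := Subtype.ext (img_one _)
  mul_smul M N S := Subtype.ext (img_mul _ _ _)

omit [Finite F] in
/-- the number of the hyperplanes of a subspace -/
theorem card_hyper_eq {m : ℕ} {W H H' : Submodule F V} (hH : H ≤ W) (hH' : H' ≤ W) (hd : finrank F H + 1 = m)
    (hd' : finrank F H' + 1 = m) : Nat.card {S : Sb W m 2 // S.1 ≤ H} = Nat.card {S : Sb W m 2 // S.1 ≤ H'} := by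
  have key : ∀ H : Submodule F V, H ≤ W → Nat.card {S : Sb W m 2 // S.1 ≤ H} = Nat.card {S : Submodule F H // finrank F S + 2 = m} := by
    intro H hH
    refine (Nat.card_congr ⟨fun S => ⟨⟨S.1.map H.subtype, (Submodule.map_subtype_le _ _).trans hH, by
        rw [Submodule.finrank_map_subtype_eq]; exact S.2⟩, Submodule.map_subtype_le _ _⟩,
      fun S => ⟨S.1.1.comap H.subtype, by
        rw [(Submodule.comapSubtypeEquivOfLe S.2).finrank_eq]; exact S.1.2.2⟩, fun S => ?_, fun S => ?_⟩).symm
    · apply Subtype.ext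
      exact Submodule.comap_map_eq_of_injective H.subtype_injective _
    · apply Subtype.ext
      apply Subtype.ext
      change (S.1.1.comap H.subtype).map H.subtype = S.1.1
      rw [Submodule.map_comap_subtype, inf_eq_right]
      exact S.2
  rw [key H hH, key H' hH']
  have e : H ≃ₗ[F] H' := LinearEquiv.ofFinrankEq _ _ (by omega)
  refine Nat.card_congr ((Submodule.orderIsoMapComap e).toEquiv.subtypeEquiv fun S => ?_)
  change _ ↔ finrank F (S.map (e : H →ₗ[F] H')) + 2 = m
  rw [LinearEquiv.finrank_map_eq]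

theorem two_le_card_hyper {m : ℕ} (hm : 3 ≤ m) {W H : Submodule F V} (hH : H ≤ W) (hd : finrank F H + 1 = m) :
    2 ≤ Nat.card {S : Sb W m 2 // S.1 ≤ H} := by
  have hfV : Finite V := Module.finite_of_finite F
  have : Finite (Submodule F V) := inferInstance
  obtain ⟨S1, -, hS1, hd1⟩ := exists_between (A := ⊥) (B := H) (k := m - 2) bot_le (by rw [finrank_bot]; omega) (by omega)
  obtain ⟨x, hx, hxS⟩ := SetLike.exists_of_lt (lt_of_le_of_ne hS1 fun h => by rw [h] at hd1; omega)
  have hx0 : x ≠ 0 := fun h => hxS (by rw [h]; exact S1.zero_mem)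
  obtain ⟨S2, hS2x, hS2, hd2⟩ := exists_between (A := F ∙ x) (B := H) (k := m - 2)
    ((Submodule.span_singleton_le_iff_mem x H).2 hx) (by rw [finrank_span_singleton hx0]; omega) (by omega)
  have hne : (⟨⟨S1, hS1.trans hH, by omega⟩, hS1⟩ : {S : Sb W m 2 // S.1 ≤ H}) ≠ ⟨⟨S2, hS2.trans hH, by omega⟩, hS2⟩ := by
    intro h
    have h1 : S1 = S2 := congrArg (fun z : {S : Sb W m 2 // S.1 ≤ H} => z.1.1) h
    apply hxS
    rw [h1]
    exact hS2x (Submodule.mem_span_singleton_self x)
  have : Nontrivial {S : Sb W m 2 // S.1 ≤ H} := ⟨⟨_, _, hne⟩⟩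
  exact Finite.one_lt_card

/-- **transitivity on the hyperplanes** -/
theorem trans_hyper {m : ℕ} (hm : 3 ≤ m) (Γ : Subgroup (Gam Q)) (W : Submodule F V) (hΓ : ∀ M ∈ Γ, img M W = W)
    (hWd : finrank F W = m)
    (htr : ∀ S ≤ W, ∀ S' ≤ W, finrank F S + 2 = m → finrank F S' + 2 = m → ∃ M ∈ Γ, img M S = S')
    {H H' : Submodule F V} (hH : H ≤ W) (hH' : H' ≤ W) (hd : finrank F H + 1 = m) (hd' : finrank F H' + 1 = m) :
    ∃ M ∈ Γ, img M H = H' := by
  have hfV : Finite V := Module.finite_of_finite F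
  have hfS : Finite (Submodule F V) := inferInstance
  let _ := sbAct Γ W hΓ m 1
  let _ := sbAct Γ W hΓ m 2
  obtain ⟨M, hM⟩ := trans_block (Γ := Γ) (A := Sb W m 1) (B := Sb W m 2) (fun a b => b.1 ≤ a.1)
    (fun M a b hab => img_mono M.1 hab) (fun b b' => by
      obtain ⟨M, hM, h⟩ := htr b.1 b.2.1 b'.1 b'.2.1 b.2.2 b'.2.2
      exact ⟨⟨M, hM⟩, Subtype.ext h⟩) (two_le_card_hyper hm hH hd)
    (fun a => card_hyper_eq a.2.1 hH a.2.2 hd) (fun a a' haa => by
      have hsup : a.1 ⊔ a'.1 = W := by
        refine Submodule.eq_of_le_of_finrank_le (sup_le a.2.1 a'.2.1) ?_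
        have hlt : a.1 < a.1 ⊔ a'.1 := lt_of_le_of_ne le_sup_left fun h => haa (Subtype.ext
          (Submodule.eq_of_le_of_finrank_eq (by rw [h]; exact le_sup_right) (by have := a.2.2; have := a'.2.2; omega)).symm)
        have := Submodule.finrank_lt_finrank_of_lt hlt
        have := a.2.2
        omega
      have hinf := Submodule.finrank_sup_add_finrank_inf_eq a.1 a'.1
      rw [hsup] at hinf
      have e1 := a.2.2
      have e2 := a'.2.2
      rw [Nat.card_eq_one_iff_unique]
      refine ⟨⟨fun s s' => ?_⟩, ⟨⟨⟨a.1 ⊓ a'.1, inf_le_left.trans a.2.1, by omega⟩, inf_le_left, inf_le_right⟩⟩⟩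
      have key : ∀ s : {b : Sb W m 2 // b.1 ≤ a.1 ∧ b.1 ≤ a'.1}, s.1.1 = a.1 ⊓ a'.1 := fun s =>
        Submodule.eq_of_le_of_finrank_eq (le_inf s.2.1 s.2.2) (by have := s.1.2.2; omega)
      exact Subtype.ext (Subtype.ext (by rw [key s, key s']))) ⟨H, hH, hd⟩ ⟨H', hH', hd'⟩
  exact ⟨M.1, M.2, congrArg Subtype.val hM⟩

end hyper

end Cfsg.Agent.H499.Rd
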